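import Mathlib
import Cfsg.Agent.Lib.Gaschutz
import Cfsg.Agent.Invol.Basic
import Cfsg.Agent.Alt.Basic

set_option autoImplicit false

/-!
In a non-split double cover of an alternating group of degree at most 7 the only involution is
central.
-/

namespace Cfsg.Agent.SporB.DoubleCover

open Subgroup

theorem cycleType_of_sq {n : ℕ} (hn : n ≤ 7) {σ : Equiv.Perm (Fin n)} (h2 : σ ^ 2 = 1)
    (h1 : σ ≠ 1) (hs : Equiv.Perm.sign σ = 1) : σ.cycleType = Multiset.replicate 2 2 := by
  have ho : orderOf σ = 2 := orderOf_eq_prime h2 h1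
  obtain ⟨k, hk⟩ := Equiv.Perm.cycleType_prime_order (ho ▸ Nat.prime_two)
  rw [ho] at hk
  have hsum := σ.sum_cycleType
  have hle := Finset.card_le_univ σ.support
  rw [Fintype.card_fin] at hle
  rw [hk, Multiset.sum_replicate, smul_eq_mul] at hsum
  rw [Equiv.Perm.sign_of_cycleType, hk, Multiset.sum_replicate, Multiset.card_replicate,
    smul_eq_mul] at hs
  have : k = 0 ∨ k = 1 ∨ k = 2 := by omega
  rcases this with rfl | rfl | rfl
  · exfalso; revert hs; decide
  · exact hk
  · exfalso; revert hs; decide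

theorem isConj_alt_involutions {n : ℕ} (hn : n ≤ 7) {σ τ : alternatingGroup (Fin n)}
    (hσ : σ ^ 2 = 1) (hσ1 : σ ≠ 1) (hτ : τ ^ 2 = 1) (hτ1 : τ ≠ 1) : IsConj σ τ := by
  have hσ' := cycleType_of_sq hn (by simpa using congrArg Subtype.val hσ)
    (fun h => hσ1 (Subtype.ext h)) (Equiv.Perm.mem_alternatingGroup.1 σ.2)
  have hτ' := cycleType_of_sq hn (by simpa using congrArg Subtype.val hτ)
    (fun h => hτ1 (Subtype.ext h)) (Equiv.Perm.mem_alternatingGroup.1 τ.2)
  have hne : (σ : Equiv.Perm (Fin n)).cycleFactorsFinset.Nonempty := by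
    rw [Finset.nonempty_iff_ne_empty, Ne, Equiv.Perm.cycleFactorsFinset_eq_empty_iff]
    exact fun h => hσ1 (Subtype.ext h)
  obtain ⟨c, hc⟩ := hne
  have hct : c.support.card ∈ (σ : Equiv.Perm (Fin n)).cycleType := by
    rw [Equiv.Perm.cycleType_def]
    exact Multiset.mem_map_of_mem _ hc
  rw [hσ'] at hct
  have hcard := Multiset.eq_of_mem_replicate hct
  refine Cfsg.Agent.Alt.isConj_alt_of_odd_commute
    (Equiv.Perm.isConj_iff_cycleType_eq.2 (hσ'.trans hτ'.symm)) (z := c) ?_ ?_
  · exact ((Equiv.Perm.self_mem_cycle_factors_commute hc)).eq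
  · obtain ⟨x, y, hxy, rfl⟩ := Equiv.Perm.card_support_eq_two.1 hcard
    exact Equiv.Perm.sign_swap hxy

/-- splitting from a good generating pair of a Sylow 2-subgroup of the quotient -/
theorem splits_of_pair {H K : Type} [Group H] [Group K] [Finite H] (Z : Subgroup H) [Z.Normal]
    (hZ : Nat.card Z = 2) (π : H →* K) (hπ : Function.Surjective π) (hker : π.ker = Z)
    (hinv : ∀ h : H, π h ^ 2 = 1 → π h ≠ 1 → h ^ 2 = 1)
    (s t : K) (m : ℕ) (hm : m = 2 ∨ m = 4) (hs : s ^ 2 = 1) (hs1 : s ≠ 1) (ht : t ^ 2 = 1)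
    (ht1 : t ≠ 1) (hord : orderOf (s * t) = m) (hnot : ∀ i < m, s * (s * t) ^ i ≠ 1)
    (hodd : ∀ c : ℕ, c * (2 * m) = Nat.card K → c % 2 = 1) :
    ∃ L : Subgroup H, Z.IsComplement' L := by
  classical
  haveI : Finite K := Finite.of_surjective π hπ
  obtain ⟨S, rfl⟩ := hπ s
  obtain ⟨T, rfl⟩ := hπ t
  have hS : orderOf S = 2 := orderOf_eq_prime (hinv S hs hs1) fun h => hs1 (by rw [h, map_one])
  have hT : orderOf T = 2 := orderOf_eq_prime (hinv T ht ht1) fun h => ht1 (by rw [h, map_one])
  have hs' : orderOf (π S) = 2 := orderOf_eq_prime hs hs1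
  have ht' : orderOf (π T) = 2 := orderOf_eq_prime ht ht1
  have hST : (S * T) ^ m = 1 := by
    have h1 : π (S * T) ^ m = 1 := by rw [map_mul, ← hord, pow_orderOf_eq_one]
    have hne : ∀ j, 0 < j → j < m → π ((S * T) ^ j) ≠ 1 := by
      intro j hj hjm h
      rw [map_pow, map_mul] at h
      have := Nat.le_of_dvd hj (hord ▸ orderOf_dvd_of_pow_eq_one h)
      omega
    rcases hm with rfl | rfl
    · refine hinv (S * T) h1 ?_
      have := hne 1 one_pos (by norm_num)
      rwa [pow_one] at this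
    · rw [show (S * T) ^ 4 = ((S * T) ^ 2) ^ 2 by rw [← pow_mul]]
      refine hinv _ ?_ (hne 2 (by norm_num) (by norm_num))
      rw [map_pow, ← pow_mul]
      exact h1
  set A := Subgroup.closure ({S, T} : Set H) with hA
  set P := Subgroup.closure ({π S, π T} : Set K) with hP
  have hmpos : 0 < m := by rcases hm with rfl | rfl <;> norm_num
  have hmem : ∀ a ∈ A, ∃ i, i < m ∧ (a = (S * T) ^ i ∨ a = S * (S * T) ^ i) := by
    intro a ha
    obtain ⟨i, hi⟩ := (Cfsg.Agent.Invol.mem_closure_pair_iff hS hT).1 ha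
    have e : (S * T) ^ i = (S * T) ^ (i % (m : ℤ)).toNat := by
      rw [← zpow_natCast (S * T) (i % (m : ℤ)).toNat,
        Int.toNat_of_nonneg (Int.emod_nonneg _ (by omega))]
      conv_lhs => rw [← Int.emod_add_mul_ediv i m]
      rw [zpow_add, zpow_mul, zpow_natCast, hST, one_zpow, mul_one]
    refine ⟨(i % (m : ℤ)).toNat, ?_, ?_⟩
    · have := Int.emod_lt_of_pos i (show (0 : ℤ) < m by omega)
      omega
    · rwa [e] at hi
  have hinj : A ⊓ Z = ⊥ := by
    rw [Subgroup.eq_bot_iff_forall]
    rintro a ⟨ha, haZ⟩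
    have h1 : π a = 1 := by rw [← MonoidHom.mem_ker, hker]; exact haZ
    obtain ⟨i, hi, rfl | rfl⟩ := hmem a ha
    · rw [map_pow, map_mul] at h1
      have : i = 0 := Nat.eq_zero_of_dvd_of_lt (hord ▸ orderOf_dvd_of_pow_eq_one h1) hi
      rw [this, pow_zero]
    · rw [map_mul, map_pow, map_mul] at h1
      exact absurd h1 (hnot i hi)
  have hmap : A.map π = P := by rw [hA, MonoidHom.map_closure, Set.image_pair, hP]
  have hcardP : Nat.card P = 2 * m := by
    have hAP : Nat.card A = Nat.card P := by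
      rw [← hmap]
      refine Nat.card_congr (Equiv.ofBijective (fun a => (⟨π a, a.1, a.2, rfl⟩ : A.map π)) ⟨?_, ?_⟩)
      · intro a b h
        have h1 : π ((a : H)⁻¹ * b) = 1 := by
          rw [map_mul, map_inv, show π a = π b from congrArg Subtype.val h, inv_mul_cancel]
        have h2 : (a : H)⁻¹ * b ∈ A ⊓ Z :=
          ⟨A.mul_mem (A.inv_mem a.2) b.2, by rw [← hker]; exact h1⟩
        rw [hinj, Subgroup.mem_bot] at h2
        exact Subtype.ext (inv_mul_eq_one.1 h2)
      · rintro ⟨_, a, ha, rfl⟩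
        exact ⟨⟨a, ha⟩, rfl⟩
    have hupper : Nat.card A ≤ 2 * m := by
      have : (A : Set H) ⊆ (fun p : Bool × Fin m => if p.1 then S * (S * T) ^ (p.2 : ℕ)
          else (S * T) ^ (p.2 : ℕ)) '' Set.univ := by
        intro a ha
        obtain ⟨i, hi, h | h⟩ := hmem a ha
        · exact ⟨(false, ⟨i, hi⟩), trivial, by simp [h]⟩
        · exact ⟨(true, ⟨i, hi⟩), trivial, by simp [h]⟩
      calc Nat.card A = (A : Set H).ncard := Nat.card_coe_set_eq _
        _ ≤ _ := Set.ncard_le_ncard this (Set.toFinite _)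
        _ ≤ (Set.univ : Set (Bool × Fin m)).ncard := Set.ncard_image_le (Set.toFinite _)
        _ = 2 * m := by simp [Set.ncard_univ]
    have hle : Subgroup.zpowers (π S * π T) ≤ P := by
      rw [Subgroup.zpowers_le]
      exact mul_mem (Subgroup.subset_closure (by simp)) (Subgroup.subset_closure (by simp))
    have hdvd := Subgroup.card_dvd_of_le hle
    rw [Nat.card_zpowers, hord] at hdvd
    obtain ⟨k, hk⟩ := hdvd
    have hk1 : k ≠ 1 := by
      intro h
      have heq : Subgroup.zpowers (π S * π T) = P := Subgroup.eq_of_le_of_card_ge hle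
        (by rw [Nat.card_zpowers, hord, hk, h, mul_one])
      have hSin : π S ∈ Subgroup.zpowers (π S * π T) := heq ▸ Subgroup.subset_closure (by simp)
      obtain ⟨i, hi, hie⟩ : ∃ i, i < m ∧ (π S * π T) ^ i = π S := by
        obtain ⟨i, hi⟩ := (isOfFinOrder_of_finite _).mem_powers_iff_mem_zpowers.2 hSin
        refine ⟨i % m, Nat.mod_lt _ hmpos, ?_⟩
        rw [← hord, pow_mod_orderOf]; exact hi
      apply hnot i hi
      rw [hie, ← pow_two, hs]
    have hk0 : k ≠ 0 := by
      rintro rfl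
      rw [mul_zero] at hk
      exact Nat.card_pos.ne' hk
    have : m * 2 ≤ m * k := Nat.mul_le_mul_left m (by omega)
    rw [hk] at hAP ⊢
    omega
  haveI : IsMulCommutative Z := by
    haveI : Fact (Nat.Prime 2) := ⟨Nat.prime_two⟩
    haveI : IsCyclic Z := isCyclic_of_prime_card hZ
    exact ⟨⟨fun a b => by letI := IsCyclic.commGroup (α := Z); exact mul_comm a b⟩⟩
  refine Cfsg.Agent.Gaschutz.exists_complement Z (P.comap π)
    (hker ▸ Subgroup.ker_le_comap π P) ?_ A hinj ?_
  · rw [Subgroup.index_comap_of_surjective P hπ, hZ, Nat.coprime_two_left, Nat.odd_iff]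
    refine hodd _ ?_
    rw [← hcardP, mul_comm]
    exact P.card_mul_index
  · rw [sup_comm, ← hker, ← Subgroup.comap_map_eq, hmap]

theorem involution_mem_center {H : Type} [Group H] [Finite H] {n : ℕ} (hn : n ≤ 7)
    (hZ : Nat.card (center H) = 2) (e : H ⧸ center H ≃* alternatingGroup (Fin n))
    (hns : ∀ L : Subgroup H, ¬ (center H).IsComplement' L) {x : H} (hx : orderOf x = 2) :
    x ∈ center H := by
  by_contra hxc
  let π : H →* alternatingGroup (Fin n) := e.toMonoidHom.comp (QuotientGroup.mk' (center H))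
  have hker : π.ker = center H := by
    ext h
    simp [π, QuotientGroup.eq_one_iff]
  have hπ : Function.Surjective π := e.surjective.comp (QuotientGroup.mk'_surjective _)
  have hxπ : π x ≠ 1 := fun h => hxc (hker ▸ h)
  have hx2 : x ^ 2 = 1 := by rw [← hx, pow_orderOf_eq_one]
  have hπx : π x ^ 2 = 1 := by rw [← map_pow, hx2, map_one]
  have hinv : ∀ h : H, π h ^ 2 = 1 → π h ≠ 1 → h ^ 2 = 1 := by
    intro h h2 h1
    obtain ⟨c, hc⟩ := isConj_iff.1 (isConj_alt_involutions hn hπx hxπ h2 h1)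
    obtain ⟨g, rfl⟩ := hπ c
    rw [← map_mul, ← map_inv, ← map_mul] at hc
    have hz : (g * x * g⁻¹)⁻¹ * h ∈ center H := by
      rw [← hker, MonoidHom.mem_ker, map_mul, map_inv, hc, inv_mul_cancel]
    set z := (g * x * g⁻¹)⁻¹ * h with hz'
    have hh : h = g * x * g⁻¹ * z := by rw [hz', mul_inv_cancel_left]
    have hcm : Commute (g * x * g⁻¹) z := Subgroup.mem_center_iff.1 hz _
    have hz2 : z ^ 2 = 1 := by
      have h1 := pow_card_eq_one' (G := center H) (x := ⟨z, hz⟩)
      rw [hZ] at h1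
      exact congrArg Subtype.val h1
    rw [hh, hcm.mul_pow, hz2, mul_one, conj_pow, hx2, mul_one, mul_inv_cancel]
  have hcard : Nat.card (alternatingGroup (Fin n)) = Fintype.card (alternatingGroup (Fin n)) :=
    Nat.card_eq_fintype_card
  have small : n ≤ 3 → False := by
    intro h3
    have h2 : (2 : ℕ) ∣ Nat.card (alternatingGroup (Fin n)) := by
      rw [← orderOf_eq_prime hπx hxπ]; exact orderOf_dvd_natCard _
    rw [hcard] at h2
    interval_cases n <;> revert h2 <;> decide
  rcases Nat.lt_or_ge n 4 with h | h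
  · exact small (by omega)
  interval_cases n
  · obtain ⟨L, hL⟩ := splits_of_pair (center H) hZ π hπ hker hinv
      ⟨Equiv.swap 0 1 * Equiv.swap 2 3, Equiv.Perm.mem_alternatingGroup.2 (by decide)⟩ ⟨Equiv.swap 0 2 * Equiv.swap 1 3, Equiv.Perm.mem_alternatingGroup.2 (by decide)⟩ 2
      (Or.inl rfl) (by decide) (by decide) (by decide) (by decide)
      (orderOf_eq_prime (by decide) (by decide)) (by decide)
      (fun c hc => by rw [hcard, show Fintype.card (alternatingGroup (Fin 4)) = 12 by decide] at hc; omega)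
    exact hns L hL
  · obtain ⟨L, hL⟩ := splits_of_pair (center H) hZ π hπ hker hinv
      ⟨Equiv.swap 0 1 * Equiv.swap 2 3, Equiv.Perm.mem_alternatingGroup.2 (by decide)⟩ ⟨Equiv.swap 0 2 * Equiv.swap 1 3, Equiv.Perm.mem_alternatingGroup.2 (by decide)⟩ 2
      (Or.inl rfl) (by decide) (by decide) (by decide) (by decide)
      (orderOf_eq_prime (by decide) (by decide)) (by decide)
      (fun c hc => by
        have := two_mul_card_alternatingGroup (α := Fin 5)
        rw [Fintype.card_perm, Fintype.card_fin, show Nat.factorial 5 = 120 by decide] at this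
        omega)
    exact hns L hL
  · obtain ⟨L, hL⟩ := splits_of_pair (center H) hZ π hπ hker hinv
      ⟨Equiv.swap 0 1 * Equiv.swap 2 3, Equiv.Perm.mem_alternatingGroup.2 (by decide)⟩ ⟨Equiv.swap 1 2 * Equiv.swap 4 5, Equiv.Perm.mem_alternatingGroup.2 (by decide)⟩ 4
      (Or.inr rfl) (by decide) (by decide) (by decide) (by decide)
      (orderOf_eq_prime_pow (p := 2) (n := 1) (by decide) (by decide)) (by decide)
      (fun c hc => by
        have := two_mul_card_alternatingGroup (α := Fin 6)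
        rw [Fintype.card_perm, Fintype.card_fin, show Nat.factorial 6 = 720 by decide] at this
        omega)
    exact hns L hL
  · obtain ⟨L, hL⟩ := splits_of_pair (center H) hZ π hπ hker hinv
      ⟨Equiv.swap 0 1 * Equiv.swap 2 3, Equiv.Perm.mem_alternatingGroup.2 (by decide)⟩ ⟨Equiv.swap 1 2 * Equiv.swap 4 5, Equiv.Perm.mem_alternatingGroup.2 (by decide)⟩ 4
      (Or.inr rfl) (by decide) (by decide) (by decide) (by decide)
      (orderOf_eq_prime_pow (p := 2) (n := 1) (by decide) (by decide)) (by decide)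
      (fun c hc => by
        have := two_mul_card_alternatingGroup (α := Fin 7)
        rw [Fintype.card_perm, Fintype.card_fin, show Nat.factorial 7 = 5040 by decide] at this
        omega)
    exact hns L hL

end Cfsg.Agent.SporB.DoubleCover
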